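import Cfsg.Agent.H897.IF.ETab
import Cfsg.Agent.H897.IF.ENum
import Cfsg.Agent.H190.IF.Root
import Cfsg.Agent.H176.IF.End
import Cfsg.Agent.S1054

/-!
# S5719: the end game for `E₈(q)`, `q` odd (helper897)

`idx8` : `|G : C(z)| (q - 1)^8 ≤ q^120` for a fundamental involution `z`;
`fund8` : `IF B Γ`, `B` contains a conjugate of a fundamental involution : contradiction.
-/

set_option autoImplicit false
set_option linter.unusedSectionVars false

namespace Cfsg.Agent.H897.IF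

open CoxeterSystem Cfsg Cfsg.Lie Cfsg.Lie.ChevalleyDatum
open Cfsg.Agent.ChevalleyStructure Cfsg.Agent.ChevalleyStructure.Elts Cfsg.Agent.ChevalleyStructure.CoxeterGeom
  Cfsg.Agent.ChevalleyStructure.CoxeterGeomTypes
open Cfsg.Agent.Tits.Roots Cfsg.Agent.Tits.Core Cfsg.Agent.Nodes.Reps Cfsg.Agent.Nodes.BNOf Cfsg.Agent.Nodes.RGDChev
  Cfsg.Agent.Nodes.Coroot Cfsg.Agent.Nodes.RGDLib Cfsg.Agent.KFacts.RgdSL
open Cfsg.Agent.KFacts.RgdChevCoord (TT XX)
open Cfsg.Agent.GenExc.Chev (diag_comm)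
open Cfsg.Agent.H190.IF (Inv2 psi psi_apply index_bound)
open Cfsg.Agent.H209.Fxy

section Ev

variable {l : ℕ} {W : Type*} [Group W] [Finite W] {M : CoxeterMatrix (Fin l)} {cs : CoxeterSystem M W}
  {A : Fin l → Fin l → ℤ} {h : IsCartan M A}

/-- the finset of the positive even roots -/
theorem exists_ev {θ : Fin l → ℤ} (hθ : IsRoot cs h θ) {m : ℕ}
    (hm : {x | IsRoot cs h x ∧ 0 ≤ x ∧ Even (cpr cs h x θ)}.ncard = m) :
    ∃ S : Finset (Fin l → ℤ), (∀ x, x ∈ S ↔ IsRoot cs h x ∧ 0 ≤ x ∧ psi hθ x = 0) ∧ S.card = m := by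
  have hf : {x | IsRoot cs h x ∧ 0 ≤ x ∧ Even (cpr cs h x θ)}.Finite :=
    H176.IFe.finite_roots.subset fun x hx => hx.1
  refine ⟨hf.toFinset, fun x => ?_, ?_⟩
  · rw [Set.Finite.mem_toFinset, Set.mem_ofPred_eq, psi_apply, ZMod.intCast_zmod_eq_zero_iff_dvd, even_iff_two_dvd]
    rfl
  · rw [← hm, Set.ncard_eq_toFinset_card _ hf]

end Ev

section E8

variable {M : CoxeterMatrix (Fin 8)} (hp : IsType chevE8 8 M) {W : Type*} [Group W] [Finite W] (cs : CoxeterSystem M W)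
  {K : Type} [Field K] [Fintype K] (p : ℕ) [Fact p.Prime] [CharP K p]

include p in
theorem idx8 (h3 : 3 ≤ Nat.card K) {z : ↥(chevE8.group K)} (hz : Inv2 cs hp.isCartan (TT chevE8 K) (XX chevE8 8 K) th8 z) :
    (Subgroup.centralizer ({z} : Set ↥(chevE8.group K))).index * (Nat.card K - 1) ^ 8 ≤ Nat.card K ^ 120 := by
  obtain ⟨S, hS, hSc⟩ := exists_ev hz.root (ev8 hp cs)
  refine index_bound (rgd hp cs p) (sl8 hp cs) (diag_comm hp K) (fun α hα => card_XX hp cs hα) hz.sgn S hS (by omega) ?_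
  rw [hSc]
  exact num_E8

include p in
/-- **E₈, the end game.** -/
theorem fund8 (ho : Odd (Nat.card K)) {z : ↥(chevE8.group K)}
    (hz : Inv2 cs hp.isCartan (TT chevE8 K) (XX chevE8 8 K) th8 z) {B : Subgroup ↥(chevE8.group K)}
    {Γ : Subgroup (MulAut ↥(chevE8.group K))} (hIF : IF B Γ) (hzB : ∃ t ∈ B, IsConj z t) : False := by
  have h1 : 1 < Nat.card K := Finite.one_lt_card
  have h3 : 3 ≤ Nat.card K := by
    obtain ⟨k, hk⟩ := ho
    omega
  have hS : IsSimpleGroup ↥(chevE8.group K) ∧ ¬ IsMulCommutative ↥(chevE8.group K) := S1054.result _ (by simp)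
  have := hS.1
  have hna : ∃ a b : ↥(chevE8.group K), a * b ≠ b * a := by
    by_contra hcon
    push Not at hcon
    exact hS.2 ⟨⟨hcon⟩⟩
  have h2 : (2 : K) ≠ 0 := by
    intro h4
    have h5 : ringChar K ∣ 2 := (ringChar.spec K 2).1 (by exact_mod_cast h4)
    have h6 : ringChar K = p := ringChar.eq_iff.2 inferInstance
    rw [h6, Nat.prime_dvd_prime_iff_eq (Fact.out : p.Prime) Nat.prime_two] at h5
    obtain ⟨f, hf, e⟩ := FiniteField.card K p
    rw [← Nat.card_eq_fintype_card, h5] at e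
    rw [e] at ho
    exact (Nat.not_odd_iff_even.2 ((Nat.even_pow.2 ⟨even_two, f.pos.ne'⟩))) ho
  have hi := idx8 hp cs p h3 hz
  have hi1 : (Subgroup.centralizer ({z} : Set ↥(chevE8.group K))).index ≤ Nat.card K ^ 120 := by
    refine le_trans ?_ hi
    exact Nat.le_mul_of_pos_right _ (pow_pos (by omega) _)
  obtain ⟨c1, c2, c3, c4, -⟩ := cnt8b hp cs
  refine H176.IFe.endgame (rgd hp cs p) (sl8 hp cs) (fun α hα => XX_comm hp cs hα) (fun α hα => card_XX hp cs hα) h3 ho hna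
    (G1_eq_top hp cs) (fun i => hsim hp cs h2 i) (fun a b ha hb => trans8 hp cs ha hb) (d := 16) (e := 8) (by norm_num)
    (fun θ x hθ hx h0 => cnt8 hp cs hθ hx h0) (root_th8 hp cs)
    ⟨al8, be8, root_al8 hp cs, root_be8 hp cs, c1, c2, c3, c4⟩ (fun r hr => ex8 hp cs (root_th8 hp cs) hr) hz ?_ ?_ hIF hzB
  · calc _ ≤ _ := hi1
      _ ≤ Nat.card K ^ 130 := Nat.pow_le_pow_right (by omega) (by norm_num)
      _ = _ := by rw [← pow_mul]
  · have hp0 : 1 ≤ p ^ 4 := Nat.one_le_pow _ _ (Fact.out : p.Prime).pos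
    have h5 : Nat.card K + 1 ≤ Nat.card K ^ 9 := by
      calc Nat.card K + 1 ≤ Nat.card K ^ 2 := by nlinarith
        _ ≤ _ := Nat.pow_le_pow_right (by omega) (by norm_num)
    calc _ ≤ Nat.card K ^ 120 * Nat.card K ^ 9 := Nat.mul_le_mul hi1 h5
      _ ≤ p ^ 4 * (Nat.card K ^ 120 * Nat.card K ^ 9) := Nat.le_mul_of_pos_left _ hp0
      _ = _ := by ring

end E8

end Cfsg.Agent.H897.IF
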