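import Cfsg.Agent.H897.IF.EightEnd
import Cfsg.Agent.H897.IF.ENum
import Cfsg.Agent.H190.IF.Root
import Cfsg.Agent.H176.IF.End
import Cfsg.Agent.S1054

/-!
# S5719: the end game for `E₇(q)`, `q` odd (helper897)

`idx7` : `|G : C(z)| (q - 1)^7 ≤ q^71` for a fundamental involution `z`;
`fund7` : `IF B Γ`, `B` contains a conjugate of a fundamental involution : contradiction.
-/

set_option autoImplicit false
set_option linter.unusedSectionVars false

namespace Cfsg.Agent.H897.IF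

open CoxeterSystem Cfsg Cfsg.Lie Cfsg.Lie.ChevalleyDatum
open Cfsg.Agent.ChevalleyStructure Cfsg.Agent.ChevalleyStructure.Elts Cfsg.Agent.ChevalleyStructure.CoxeterGeom
  Cfsg.Agent.ChevalleyStructure.CoxeterGeomTypes
open Cfsg.Agent.Tits.Roots Cfsg.Agent.Tits.Core Cfsg.Agent.Nodes.Reps Cfsg.Agent.Nodes.BNOf Cfsg.Agent.Nodes.RGDChev
  Cfsg.Agent.Nodes.Coroot Cfsg.Agent.Nodes.RGDLib Cfsg.Agent.KFacts.RgdSL
open Cfsg.Agent.KFacts.RgdChevCoord (TT XX)
open Cfsg.Agent.GenExc.Chev (diag_comm)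
open Cfsg.Agent.H190.IF (Inv2 psi psi_apply index_bound)
open Cfsg.Agent.H209.Fxy


section E7

variable {M : CoxeterMatrix (Fin 7)} (hp : IsType chevE7 7 M) {W : Type*} [Group W] [Finite W] (cs : CoxeterSystem M W)
  {K : Type} [Field K] [Fintype K] (p : ℕ) [Fact p.Prime] [CharP K p]

include p in
theorem idx7 (h3 : 3 ≤ Nat.card K) {z : ↥(chevE7.group K)} (hz : Inv2 cs hp.isCartan (TT chevE7 K) (XX chevE7 7 K) th7 z) :
    (Subgroup.centralizer ({z} : Set ↥(chevE7.group K))).index * (Nat.card K - 1) ^ 7 ≤ Nat.card K ^ 71 := by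
  obtain ⟨S, hS, hSc⟩ := exists_ev hz.root (ev7 hp cs)
  refine index_bound (rgd hp cs p) (sl7 hp cs) (diag_comm hp K) (fun α hα => card_XX hp cs hα) hz.sgn S hS (by omega) ?_
  rw [hSc]
  exact num_E7

include p in
/-- **E₇, the end game.** -/
theorem fund7 (ho : Odd (Nat.card K)) {z : ↥(chevE7.group K)}
    (hz : Inv2 cs hp.isCartan (TT chevE7 K) (XX chevE7 7 K) th7 z) {B : Subgroup ↥(chevE7.group K)}
    {Γ : Subgroup (MulAut ↥(chevE7.group K))} (hIF : IF B Γ) (hzB : ∃ t ∈ B, IsConj z t) : False := by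
  have h1 : 1 < Nat.card K := Finite.one_lt_card
  have h3 : 3 ≤ Nat.card K := by
    obtain ⟨k, hk⟩ := ho
    omega
  have hS : IsSimpleGroup ↥(chevE7.group K) ∧ ¬ IsMulCommutative ↥(chevE7.group K) := S1054.result _ (by simp)
  have := hS.1
  have hna : ∃ a b : ↥(chevE7.group K), a * b ≠ b * a := by
    by_contra hcon
    push Not at hcon
    exact hS.2 ⟨⟨hcon⟩⟩
  have h2 : (2 : K) ≠ 0 := by
    intro h4
    have h5 : ringChar K ∣ 2 := (ringChar.spec K 2).1 (by exact_mod_cast h4)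
    have h6 : ringChar K = p := ringChar.eq_iff.2 inferInstance
    rw [h6, Nat.prime_dvd_prime_iff_eq (Fact.out : p.Prime) Nat.prime_two] at h5
    obtain ⟨f, hf, e⟩ := FiniteField.card K p
    rw [← Nat.card_eq_fintype_card, h5] at e
    rw [e] at ho
    exact (Nat.not_odd_iff_even.2 ((Nat.even_pow.2 ⟨even_two, f.pos.ne'⟩))) ho
  have hi := idx7 hp cs p h3 hz
  obtain ⟨q, hq⟩ : ∃ q, q = Nat.card K := ⟨_, rfl⟩
  obtain ⟨N, hN⟩ : ∃ N, N = (Subgroup.centralizer ({z} : Set ↥(chevE7.group K))).index := ⟨_, rfl⟩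
  rw [← hN, ← hq] at hi
  have h3' := h3
  rw [← hq] at h3'
  have hp3 : 3 ≤ p := by
    have h5 := (Fact.out : p.Prime).two_le
    rcases Nat.lt_or_ge p 3 with h6 | h6
    · exfalso
      have h7 : p = 2 := by omega
      apply h2
      have h8 := CharP.cast_eq_zero K p
      rw [h7] at h8
      exact_mod_cast h8
    · exact h6
  obtain ⟨c1, c2, c3, c4, -⟩ := cnt7b hp cs
  refine H176.IFe.endgame (rgd hp cs p) (sl7 hp cs) (fun α hα => XX_comm hp cs hα) (fun α hα => card_XX hp cs hα) h3 ho hna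
    (G1_eq_top hp cs) (fun i => hsim hp cs h2 i) (fun a b ha hb => trans7 hp cs ha hb) (d := 8) (e := 4) (by norm_num)
    (fun θ x hθ hx h0 => cnt7 hp cs hθ hx h0) (root_th7 hp cs)
    ⟨al7, be7, root_al7 hp cs, root_be7 hp cs, c1, c2, c3, c4⟩ (fun r hr => ex7 hp cs (root_th7 hp cs) hr) hz ?_ ?_ hIF hzB
  · rw [← hN, ← hq]
    have h5 : q ≤ (q - 1) ^ 7 := by
      obtain ⟨m, rfl⟩ : ∃ m, q = m + 3 := ⟨q - 3, by omega⟩
      have h6 : m + 3 - 1 = m + 2 := by omega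
      rw [h6]
      calc m + 3 ≤ (m + 2) ^ 2 := by nlinarith
        _ ≤ _ := Nat.pow_le_pow_right (by omega) (by norm_num)
    have h7 : N * q ≤ q ^ 70 * q := by
      calc N * q ≤ N * (q - 1) ^ 7 := Nat.mul_le_mul_left _ h5
        _ ≤ q ^ 71 := hi
        _ = _ := by ring
    calc N ≤ q ^ 70 := Nat.le_of_mul_le_mul_right h7 (by omega)
      _ = _ := by rw [← pow_mul]
  · rw [← hN, ← hq]
    have h5 : q ^ 6 * (q + 1) ≤ 81 * (q - 1) ^ 7 := by
      obtain ⟨m, rfl⟩ : ∃ m, q = m + 3 := ⟨q - 3, by omega⟩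
      have h6 : m + 3 - 1 = m + 2 := by omega
      rw [h6]
      ring_nf
      nlinarith [Nat.zero_le m, Nat.zero_le (m ^ 2), Nat.zero_le (m ^ 3), Nat.zero_le (m ^ 4), Nat.zero_le (m ^ 5),
        Nat.zero_le (m ^ 6), Nat.zero_le (m ^ 7)]
    have h6 : 81 ≤ p ^ 4 := by
      calc 81 = 3 ^ 4 := by norm_num
        _ ≤ _ := Nat.pow_le_pow_left hp3 4
    have h7 : N * (q + 1) * (q - 1) ^ 7 ≤ 81 * q ^ 65 * (q - 1) ^ 7 := by
      calc N * (q + 1) * (q - 1) ^ 7 = N * (q - 1) ^ 7 * (q + 1) := by ring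
        _ ≤ q ^ 71 * (q + 1) := Nat.mul_le_mul_right _ hi
        _ = q ^ 65 * (q ^ 6 * (q + 1)) := by ring
        _ ≤ q ^ 65 * (81 * (q - 1) ^ 7) := Nat.mul_le_mul_left _ h5
        _ = _ := by ring
    calc N * (q + 1) ≤ 81 * q ^ 65 := Nat.le_of_mul_le_mul_right h7 (pow_pos (by omega) _)
      _ ≤ p ^ 4 * q ^ 65 := Nat.mul_le_mul_right _ h6
      _ = _ := by ring

end E7

end Cfsg.Agent.H897.IF
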